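import Mathlib
import Cfsg.Agent.H384.RC.Fam

/-!
# S3510 part B: two small rules used for the box B43 (helper25)
-/

set_option autoImplicit false
open MulAction

namespace Cfsg.Agent.H25.RC

open Cfsg.Agent.H106.RC Cfsg.Agent.H384.RC

variable {S : Type*} [Group S]

/-- if every point is fixed by `t` or by `x`, then every point is fixed by `k` or by `x`, where `k` is in the
group generated by the `[q, t]`, `q` commuting with `x` -/
theorem step {H : Subgroup (MulAut S)} {t x k : MulAut S}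
    (hM : ∀ n ∈ inn S, t • ((n : MulAut S) : MulAut S ⧸ H) = (n : MulAut S) ∨
      x • ((n : MulAut S) : MulAut S ⧸ H) = (n : MulAut S))
    (hk : k ∈ Subgroup.closure {z | ∃ q ∈ inn S, q * x = x * q ∧ z = q * t * q⁻¹ * t⁻¹}) :
    ∀ n ∈ inn S, k • ((n : MulAut S) : MulAut S ⧸ H) = (n : MulAut S) ∨
      x • ((n : MulAut S) : MulAut S ⧸ H) = (n : MulAut S) := by
  intro n hn
  by_cases hx : x • ((n : MulAut S) : MulAut S ⧸ H) = (n : MulAut S)
  · exact Or.inr hx
  left
  have key : ∀ q ∈ inn S, q * x = x * q →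
      t • (q • ((n : MulAut S) : MulAut S ⧸ H)) = q • ((n : MulAut S) : MulAut S ⧸ H) := by
    intro q hq hqx
    have hmove : x • (q • ((n : MulAut S) : MulAut S ⧸ H)) ≠ q • ((n : MulAut S) : MulAut S ⧸ H) := by
      intro h
      rw [← mul_smul, ← hqx, mul_smul] at h
      exact hx (smul_left_cancel _ h)
    rcases hM (q * n) ((inn S).mul_mem hq hn) with h | h
    · exact h
    · exact absurd h hmove
  have hle : Subgroup.closure {z | ∃ q ∈ inn S, q * x = x * q ∧ z = q * t * q⁻¹ * t⁻¹} ≤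
      stabilizer (MulAut S) ((n : MulAut S) : MulAut S ⧸ H) := by
    rw [Subgroup.closure_le]
    rintro _ ⟨q, hq, hqx, rfl⟩
    have h1 := key 1 (inn S).one_mem (by rw [one_mul, mul_one])
    rw [one_smul] at h1
    have hqx' : q⁻¹ * x = x * q⁻¹ := by
      calc q⁻¹ * x = q⁻¹ * (x * q) * q⁻¹ := by group
        _ = q⁻¹ * (q * x) * q⁻¹ := by rw [hqx]
        _ = _ := by group
    have h2 := key q⁻¹ ((inn S).inv_mem hq) hqx'
    show (q * t * q⁻¹ * t⁻¹) • ((n : MulAut S) : MulAut S ⧸ H) = ((n : MulAut S) : MulAut S ⧸ H)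
    have h3 : t⁻¹ • ((n : MulAut S) : MulAut S ⧸ H) = ((n : MulAut S) : MulAut S ⧸ H) := by
      rw [inv_smul_eq_iff, h1]
    rw [mul_smul, h3, mul_assoc, mul_smul, mul_smul, h2, smul_inv_smul]
  exact hle hk

/-- conjugation of a cover by an automorphism commuting with `t` -/
theorem covH_conj {t a : MulAut S} {κ : Type} {x : κ → MulAut S} {H : Subgroup (MulAut S)}
    (ha : a * t = t * a) (h : CovH t x H) :
    CovH t (fun i => a * x i * a⁻¹) (H.map (MulAut.conj a).toMonoidHom) := by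
  have hmem : ∀ z, a⁻¹ * z * a ∈ H → z ∈ H.map (MulAut.conj a).toMonoidHom := by
    intro z hz
    refine ⟨_, hz, ?_⟩
    show a * (a⁻¹ * z * a) * a⁻¹ = z
    group
  intro s
  have e : a⁻¹ * MulAut.conj s * a = MulAut.conj (a⁻¹ s) := by
    have := aut_conj a⁻¹ s
    rwa [inv_inv] at this
  rcases h (a⁻¹ s) with h1 | ⟨i, h1⟩
  · left
    apply hmem
    have e2 : a⁻¹ * (MulAut.conj s * t * (MulAut.conj s)⁻¹) * a =
        MulAut.conj (a⁻¹ s) * t * (MulAut.conj (a⁻¹ s))⁻¹ := by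
      have e3 : a⁻¹ * t * a = t := by rw [mul_assoc, ← ha, inv_mul_cancel_left]
      rw [← e]
      calc a⁻¹ * (MulAut.conj s * t * (MulAut.conj s)⁻¹) * a =
          (a⁻¹ * MulAut.conj s * a) * (a⁻¹ * t * a) * (a⁻¹ * MulAut.conj s * a)⁻¹ := by group
        _ = _ := by rw [e3]
    rw [e2]
    exact h1
  · right
    refine ⟨i, ?_⟩
    apply hmem
    have e2 : a⁻¹ * (MulAut.conj s * (a * x i * a⁻¹) * (MulAut.conj s)⁻¹) * a =
        MulAut.conj (a⁻¹ s) * x i * (MulAut.conj (a⁻¹ s))⁻¹ := by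
      rw [← e]
      group
    rw [e2]
    exact h1

theorem inn_le_of_conj_map {a : MulAut S} {H : Subgroup (MulAut S)}
    (h : inn S ≤ H.map (MulAut.conj a).toMonoidHom) : inn S ≤ H := by
  intro z hz
  obtain ⟨w, hw, hwz⟩ := h (inn_conj_mem hz a)
  have : w = z := by
    have h1 : a * w * a⁻¹ = a * z * a⁻¹ := hwz
    exact mul_left_cancel (mul_right_cancel h1)
  rw [← this]
  exact hw

/-- one odd prime, `x = x₀` up to conjugation by an automorphism `a` commuting with `t`: the two step rule -/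
theorem two_step (hS : IsSimpleGroup S) {t a x₀ k q c : MulAut S} {κ : Type} {x : κ → MulAut S}
    {H : Subgroup (MulAut S)} (hcov : CovH t x H) (i₀ : κ) (hκ : ∀ i, i = i₀)
    (ha : a * t = t * a) (hx : a * x i₀ * a⁻¹ = x₀)
    (hki : k ∈ inn S) (hk1 : k ≠ 1)
    (hq : q ∈ inn S) (hqx : q * x₀ = x₀ * q) (hk : k = q * t * q⁻¹ * t⁻¹)
    (hc : c ∈ inn S) (hck : c * k = k * c) (hk' : k = c * x₀ * c⁻¹ * x₀⁻¹) : inn S ≤ H := by
  apply inn_le_of_conj_map (a := a)
  have h1 := (covH_conj ha hcov).pt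
  have h2 : ∀ n ∈ inn S, t • ((n : MulAut S) : MulAut S ⧸ (H.map (MulAut.conj a).toMonoidHom)) =
      (n : MulAut S) ∨
      x₀ • ((n : MulAut S) : MulAut S ⧸ (H.map (MulAut.conj a).toMonoidHom)) = (n : MulAut S) := by
    intro n hn
    rcases h1 n hn with h | ⟨i, h⟩
    · exact Or.inl h
    · right
      rw [hκ i, hx] at h
      exact h
  have h3 := step h2 (k := k) (Subgroup.subset_closure ⟨q, hq, hqx, hk⟩)
  exact fam_root hS x₀ _ k hki hk1 h3 (Subgroup.subset_closure ⟨c, hc, hck, hk'⟩)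

end Cfsg.Agent.H25.RC
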